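import Cfsg.Prelude.Def_LocalEven
import Cfsg.Agent.Lib.Cores.GenFitting
import Cfsg.Agent.Lib.Cores.PCore
import Cfsg.Agent.Lib.CoprimeAction.Sylow
import Cfsg.Agent.Lib.CoprimeAction.Glauberman
import Cfsg.Agent.Lib.SolvableStructure.ComplementSystem

/-!
Isolated `p`-minimal subgroups, modulo `O_p(G)`: the normal closure `Y` of `A = O^p(P)` is either
`A`, a `t`-group of class at most two, or semisimple with components transitively permuted by `S`.
-/

set_option autoImplicit false
set_option linter.style.haveILetI false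

namespace CfsgLib.IsolatedPMin

open Cfsg
open scoped commutatorElement

variable {X : Type*} [Group X] {p : ℕ}

/-- The configuration of an isolated `p`-minimal subgroup with `O_p(X) = 1`. -/
structure Setting (p : ℕ) (S : Sylow p X) (A L Q : Subgroup X) : Prop where
  normA : (S : Subgroup X) ≤ Subgroup.normalizer (A : Set X)
  le_L : (S : Subgroup X) ≤ L
  Q_le : Q ≤ (S : Subgroup X)
  normQ : L ≤ Subgroup.normalizer (Q : Set X)
  gen : ∀ H : Subgroup X, (S : Subgroup X) ≤ H →
    H ≤ L ∨ (A ≤ H ∧ H ≤ (A ⊔ (S : Subgroup X)) ⊔ (L ⊓ H))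
  A_le : A ≤ Subgroup.normalClosure (Q : Set X)
  A_elems : A ≤ Subgroup.closure {a : X | a ∈ A ∧ (orderOf a).Coprime p}
  ne_bot : A ≠ ⊥
  core : pCore p X = ⊥

/-- A subgroup generated by `p'`-elements in `B ⊔ T`, `T` a `p`-group normalising `B`, lies in `B`. -/
theorem le_of_le_sup {A B T : Subgroup X} (hT : IsPGroup p T)
    (hTB : T ≤ Subgroup.normalizer (B : Set X))
    (hA : A ≤ Subgroup.closure {a : X | a ∈ A ∧ (orderOf a).Coprime p}) (h : A ≤ B ⊔ T) :
    A ≤ B := by
  refine hA.trans ((Subgroup.closure_le _).2 ?_)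
  rintro a ⟨haA, hao⟩
  set K := B ⊔ T
  haveI : (B.subgroupOf K).Normal :=
    Subgroup.normal_subgroupOf_of_le_normalizer (sup_le Subgroup.le_normalizer hTB)
  set a' : K := ⟨a, h haA⟩
  obtain ⟨b, hb, t, ht, hbt⟩ : ∃ b ∈ B, ∃ t ∈ T, b * t = a := by
    have h' : a ∈ ((B ⊔ T : Subgroup X) : Set X) := h haA
    rw [Subgroup.coe_mul_of_right_le_normalizer_left _ _ hTB] at h'
    exact h'
  obtain ⟨k, hk⟩ := hT ⟨t, ht⟩
  have hk' : t ^ p ^ k = 1 := by simpa using congrArg Subtype.val hk
  have heq : (QuotientGroup.mk a' : K ⧸ B.subgroupOf K) =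
      QuotientGroup.mk (⟨t, Subgroup.mem_sup_right ht⟩ : K) := by
    refine QuotientGroup.eq.2 ?_
    show a⁻¹ * t ∈ B
    rw [← hbt, mul_inv_rev]
    exact (Subgroup.mem_normalizer_iff''.1 (hTB ht) _).1 (inv_mem hb)
  have h1 : (QuotientGroup.mk a' : K ⧸ B.subgroupOf K) ^ p ^ k = 1 := by
    rw [heq, ← QuotientGroup.mk_pow,
      show (⟨t, Subgroup.mem_sup_right ht⟩ : K) ^ p ^ k = 1 from Subtype.ext hk']
    rfl
  have h2 : (QuotientGroup.mk a' : K ⧸ B.subgroupOf K) ^ orderOf a = 1 := by
    rw [← QuotientGroup.mk_pow, show a' ^ orderOf a = 1 from Subtype.ext (pow_orderOf_eq_one a)]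
    rfl
  have := pow_gcd_eq_one.2 ⟨h2, h1⟩
  rw [(hao.pow_right k).gcd_eq_one, pow_one] at this
  exact (QuotientGroup.eq_one_iff a').1 this

theorem eq_top_of_forall_sylow [Finite X] {H : Subgroup X}
    (h : ∀ r : ℕ, r.Prime → r ∣ Nat.card X → ∃ R : Sylow r X, (R : Subgroup X) ≤ H) : H = ⊤ := by
  by_contra hne
  obtain ⟨r, hr, hrd⟩ := Nat.exists_prime_and_dvd (mt Subgroup.index_eq_one.1 hne)
  haveI := Fact.mk hr
  obtain ⟨R, hR⟩ := h r hr (hrd.trans (Subgroup.index_dvd_card H))
  exact R.not_dvd_index (hrd.trans (Subgroup.index_dvd_of_le hR))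

namespace Setting

variable [Finite X] [Fact p.Prime] {S : Sylow p X} {A L Q : Subgroup X}

theorem p_sub_eq_bot (h : Setting p S A L Q) {N T : Subgroup X} (hN : N.IsSubnormal)
    (hTN : T ≤ N) (hn : N ≤ Subgroup.normalizer (T : Set X)) (hT : IsPGroup p T) : T = ⊥ :=
  le_bot_iff.1 ((CfsgLib.Cores.le_pCore_of_subnormal_aux hN T hTN hn hT).trans h.core.le)

theorem Q_ne_bot (h : Setting p S A L Q) : Q ≠ ⊥ := by
  intro h0
  apply h.ne_bot
  rw [eq_bot_iff]
  refine h.A_le.trans (Subgroup.normalClosure_le_normal ?_)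
  rw [h0]

/-- A normal subgroup, or one containing a normaliser argument: normal `N ≤ L` centralises `Q`. -/
theorem centralizes_of_le (h : Setting p S A L Q) {N : Subgroup X} (hN : N.IsSubnormal)
    (hNL : N ≤ L) (hQN : Q ≤ Subgroup.normalizer (N : Set X)) :
    Q ≤ Subgroup.centralizer (N : Set X) := by
  have h1 : ⁅Q, N⁆ ≤ Q ⊓ N :=
    le_inf (CfsgLib.CoprimeAction.commutator_le_left (hNL.trans h.normQ))
      (by rw [Subgroup.commutator_comm]; exact CfsgLib.CoprimeAction.commutator_le_left hQN)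
  have hn : N ≤ Subgroup.normalizer ((Q ⊓ N : Subgroup X) : Set X) := fun g hg =>
    Subgroup.mem_normalizer_iff.2 fun z => by
      rw [Subgroup.mem_inf, Subgroup.mem_inf, Subgroup.mem_normalizer_iff.1 (h.normQ (hNL hg)) z,
        Subgroup.mem_normalizer_iff.1 (Subgroup.le_normalizer hg) z]
  have h2 := h.p_sub_eq_bot hN inf_le_right hn (S.isPGroup'.to_le (inf_le_left.trans h.Q_le))
  rw [← Subgroup.commutator_eq_bot_iff_le_centralizer, ← le_bot_iff, ← h2]
  exact h1

theorem le_or_le (h : Setting p S A L Q) {N : Subgroup X}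
    (hSN : (S : Subgroup X) ≤ Subgroup.normalizer (N : Set X)) : A ≤ N ∨ N ≤ L := by
  rcases h.gen (N ⊔ (S : Subgroup X)) le_sup_right with h1 | ⟨h1, -⟩
  · exact Or.inr (le_sup_left.trans h1)
  · exact Or.inl (le_of_le_sup S.isPGroup' hSN h.A_elems h1)

theorem dichotomy (h : Setting p S A L Q) {N : Subgroup X} (hN : N.Normal) :
    Subgroup.normalClosure (A : Set X) ≤ N ∨
      (N ≤ L ∧ Subgroup.normalClosure (A : Set X) ≤ Subgroup.centralizer (N : Set X) ∧
        Subgroup.normalClosure (Q : Set X) ≤ Subgroup.centralizer (N : Set X)) := by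
  have htop : ∀ H : Subgroup X, H ≤ Subgroup.normalizer (N : Set X) := fun H => by
    rw [Subgroup.normalizer_eq_top_iff.2 hN]; exact le_top
  rcases h.le_or_le (htop _) with h1 | h1
  · exact Or.inl (Subgroup.normalClosure_le_normal h1)
  · have h2 : Subgroup.normalClosure (Q : Set X) ≤ Subgroup.centralizer (N : Set X) :=
      Subgroup.normalClosure_le_normal (h.centralizes_of_le hN.isSubnormal h1 (htop _))
    exact Or.inr ⟨h1, Subgroup.normalClosure_le_normal (h.A_le.trans h2), h2⟩

theorem sup_eq_top (h : Setting p S A L Q) : A ⊔ L = ⊤ := by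
  rcases h.gen ⊤ le_top with h1 | ⟨-, h1⟩
  · exact top_le_iff.1 (h1.trans le_sup_right)
  · exact top_le_iff.1 (h1.trans
      (sup_le (sup_le le_sup_left (h.le_L.trans le_sup_right)) (inf_le_left.trans le_sup_right)))

theorem commutator_Q (h : Setting p S A L Q) :
    ⁅Subgroup.normalClosure (A : Set X), Q⁆ = Subgroup.normalClosure (A : Set X) := by
  set Y := Subgroup.normalClosure (A : Set X) with hY
  have hYn : Y.Normal := Subgroup.normalClosure_normal
  have htop : ∀ H : Subgroup X, H ≤ Subgroup.normalizer (Y : Set X) := fun H => by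
    rw [Subgroup.normalizer_eq_top_iff.2 hYn]; exact le_top
  set W := ⁅Y, Q⁆ with hW
  have hWY : W ≤ Y := Subgroup.commutator_le_left Y Q
  have hWn : W.Normal := by
    refine Subgroup.normalizer_eq_top_iff.1 (top_le_iff.1 (h.sup_eq_top.ge.trans (sup_le ?_ ?_)))
    · refine le_trans ?_ ((CfsgLib.CoprimeAction.sup_le_normalizer_commutator Q Y))
      exact Subgroup.le_normalClosure.trans le_sup_left |>.trans (by rw [sup_comm])
    · intro g hg
      refine CfsgLib.CoprimeAction.mem_normalizer_of_conj_mem fun z hz => ?_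
      have : W.map (MulAut.conj g).toMonoidHom ≤ W := by
        rw [hW, Subgroup.map_commutator]
        refine Subgroup.commutator_mono ?_ ?_
        · rintro _ ⟨y, hy, rfl⟩; exact hYn.conj_mem y hy g
        · rintro _ ⟨q, hq, rfl⟩; exact (Subgroup.mem_normalizer_iff.1 (h.normQ hg) q).1 hq
      exact this ⟨z, hz, rfl⟩
  rcases h.dichotomy hWn with h1 | ⟨-, h1, h2⟩
  · exact le_antisymm hWY h1
  exfalso
  have hWab : ∀ u ∈ W, ∀ v ∈ W, u * v = v * u := fun u hu v hv => (h1 (hWY hv) u hu)
  have hWQ : ∀ q ∈ Q, ∀ u ∈ W, u * q = q * u := fun q hq u hu =>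
    h2 (Subgroup.le_normalClosure hq) u hu
  have hbot : W = ⊥ := by
    rw [eq_bot_iff, hW, Subgroup.commutator_le]
    intro y hy q hq
    have hmem : ∀ k : ℕ, ⁅y, q ^ k⁆ = ⁅y, q⁆ ^ k := by
      intro k
      induction k with
      | zero => simp
      | succ k ih =>
        have hu : ⁅y, q⁆ ∈ W := Subgroup.commutator_mem_commutator hy hq
        have e : ⁅y, q * q ^ k⁆ = ⁅y, q⁆ * (q * ⁅y, q ^ k⁆ * q⁻¹) := by
          simp only [commutatorElement_def]; group
        rw [pow_succ', e, ih, ← (show Commute (⁅y, q⁆ ^ k) q from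
          Commute.pow_left (hWQ q hq _ hu) k).eq, mul_inv_cancel_right, pow_succ']
    obtain ⟨j, hj⟩ := S.isPGroup' ⟨q, h.Q_le hq⟩
    have hj' : q ^ p ^ j = 1 := by simpa using congrArg Subtype.val hj
    have hu : ⁅y, q⁆ ^ p ^ j = 1 := by rw [← hmem, hj', commutatorElement_one_right]
    set u := ⁅y, q⁆
    have huW : u ∈ W := Subgroup.commutator_mem_commutator hy hq
    have hp : IsPGroup p (Subgroup.zpowers u) := by
      obtain ⟨i, -, hi⟩ := (Nat.dvd_prime_pow Fact.out).1 (orderOf_dvd_of_pow_eq_one hu)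
      exact IsPGroup.of_card (n := i) (by rw [Nat.card_zpowers, hi])
    have hz : Subgroup.zpowers u = ⊥ := by
      refine h.p_sub_eq_bot hWn.isSubnormal (Subgroup.zpowers_le.2 huW) (fun g hg => ?_) hp
      refine Subgroup.centralizer_le_normalizer _ ?_
      rw [Subgroup.zpowers_eq_closure, Subgroup.centralizer_closure]
      exact Subgroup.mem_centralizer_singleton_iff.2 (hWab g hg u huW)
    rw [Subgroup.mem_bot]
    exact Subgroup.zpowers_eq_bot.1 hz
  have hAc : A ≤ Subgroup.centralizer (Q : Set X) :=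
    Subgroup.le_normalClosure.trans (Subgroup.commutator_eq_bot_iff_le_centralizer.1 hbot)
  have hQn : Q.Normal := by
    refine Subgroup.normalizer_eq_top_iff.1 (top_le_iff.1 (h.sup_eq_top.ge.trans (sup_le ?_ h.normQ)))
    exact hAc.trans (Subgroup.centralizer_le_normalizer _)
  exact h.Q_ne_bot (le_bot_iff.1 ((CfsgLib.Cores.le_pCore (S.isPGroup'.to_le h.Q_le)).trans h.core.le))

/-- The case where `Y` has order prime to `p`. -/
theorem coprime_case (h : Setting p S A L Q)
    (hp : (Nat.card (Subgroup.normalClosure (A : Set X))).Coprime p) :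
    Subgroup.normalClosure (A : Set X) = A ∧
      ∃ t : ℕ, t.Prime ∧ t ≠ p ∧ IsPGroup t (Subgroup.normalClosure (A : Set X)) ∧
        ⁅⁅A, A⁆, A⁆ = ⊥ := by
  classical
  set Y := Subgroup.normalClosure (A : Set X) with hY
  have hYn : Y.Normal := Subgroup.normalClosure_normal
  have hAY : A ≤ Y := Subgroup.le_normalClosure
  have htop : ∀ H : Subgroup X, H ≤ Subgroup.normalizer (Y : Set X) := fun H => by
    rw [Subgroup.normalizer_eq_top_iff.2 hYn]; exact le_top
  obtain ⟨n, hn⟩ := S.isPGroup'.exists_card_eq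
  have hcopY : (Nat.card (S : Subgroup X)).Coprime (Nat.card Y) := by
    rw [hn]; exact (hp.symm.pow_left n)
  haveI : Group.IsNilpotent (S : Subgroup X) := S.isPGroup'.isNilpotent
  have hsolv : Group.IsSolvable (S : Subgroup X) := inferInstance
  have hYS : Y ⊓ (S : Subgroup X) = ⊥ :=
    disjoint_iff.1 (Subgroup.disjoint_of_coprime_natCard hcopY.symm)
  have hcopA := hcopY.coprime_dvd_right (Subgroup.card_dvd_of_le hAY)
  -- `A` is a `t`-group
  obtain ⟨t, ht, htA, htG⟩ : ∃ t : ℕ, t.Prime ∧ t ∣ Nat.card A ∧ IsPGroup t A := by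
    by_contra hno
    push Not at hno
    have hAL : A ≤ L := by
      suffices hsuf : L.subgroupOf A = ⊤ from Subgroup.subgroupOf_eq_top.1 hsuf
      refine eq_top_of_forall_sylow fun r hr hrA => ?_
      haveI := Fact.mk hr
      obtain ⟨R, hR⟩ := CfsgLib.CoprimeAction.exists_invariant_sylow h.normA hcopA (Or.inl hsolv) r
      refine ⟨R, ?_⟩
      rcases h.le_or_le hR with h1 | h1
      · exact absurd ((R.isPGroup'.map A.subtype).to_le h1) (hno r hr hrA)
      · exact fun a ha => h1 ⟨a, ha, rfl⟩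
    have : (⊤ : Subgroup X) ≤ L := h.sup_eq_top.ge.trans (sup_le hAL le_rfl)
    have hQn : Q.Normal := Subgroup.normalizer_eq_top_iff.1 (top_le_iff.1 (this.trans h.normQ))
    exact h.Q_ne_bot (le_bot_iff.1 ((CfsgLib.Cores.le_pCore (S.isPGroup'.to_le h.Q_le)).trans h.core.le))
  haveI := Fact.mk ht
  have htp : t ≠ p := by
    rintro rfl
    have := Nat.Coprime.coprime_dvd_left (htA.trans (Subgroup.card_dvd_of_le hAY)) hp
    exact ht.ne_one ((Nat.coprime_self t).1 this)
  obtain ⟨T, hT⟩ := CfsgLib.CoprimeAction.exists_invariant_sylow (htop _) hcopY (Or.inl hsolv) t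
  set T' := (T : Subgroup Y).map Y.subtype with hT'
  set C := Y ⊓ Subgroup.centralizer (Q : Set X) with hC
  have hCcov : ∀ y ∈ Y, ∃ u ∈ T', ∃ c ∈ C, u * c = y := by
    have hidx : ∀ r : ℕ, r.Prime → r ≠ t → ¬ r ∣ (C.subgroupOf Y).index := by
      intro r hr hrt hdvd
      haveI := Fact.mk hr
      obtain ⟨R, hR⟩ := CfsgLib.CoprimeAction.exists_invariant_sylow (htop _) hcopY (Or.inl hsolv) r
      have hRL : (R : Subgroup Y).map Y.subtype ≤ L := (h.le_or_le hR).resolve_left fun h1 => by
        obtain ⟨m, hm⟩ := (R.isPGroup'.map Y.subtype).exists_card_eq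
        have := (htA.trans (Subgroup.card_dvd_of_le h1))
        rw [hm] at this
        exact hrt ((Nat.prime_dvd_prime_iff_eq ht hr).1 (ht.dvd_of_dvd_pow this)).symm
      have hRC : (R : Subgroup Y) ≤ C.subgroupOf Y := by
        intro x hx
        refine ⟨x.2, Subgroup.mem_centralizer_iff.2 fun q hq => ?_⟩
        have hxR : (x : X) ∈ (R : Subgroup Y).map Y.subtype := ⟨x, hx, rfl⟩
        have h1 : ⁅(x : X), q⁆ ∈ Y ⊓ (S : Subgroup X) := by
          refine ⟨?_, h.Q_le ?_⟩
          · exact Subgroup.commutator_le_left Y ⊤ (Subgroup.commutator_mem_commutator x.2 trivial)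
          · rw [commutatorElement_def]
            exact mul_mem ((Subgroup.mem_normalizer_iff.1 (h.normQ (hRL hxR)) q).1 hq) (inv_mem hq)
        rw [hYS, Subgroup.mem_bot, commutatorElement_eq_one_iff_mul_comm] at h1
        exact h1.symm
      exact R.not_dvd_index (hdvd.trans (Subgroup.index_dvd_of_le hRC))
    obtain ⟨m, hm⟩ : ∃ m : ℕ, (C.subgroupOf Y).index = t ^ m := by
      refine ⟨(C.subgroupOf Y).index.primeFactorsList.length, ?_⟩
      refine Nat.eq_prime_pow_of_unique_prime_dvd Subgroup.index_ne_zero_of_finite ?_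
      intro q hq hqd
      by_contra hne
      exact hidx q hq hne hqd
    have hcop : (C.subgroupOf Y).index.Coprime (T : Subgroup Y).index := by
      rw [hm]
      exact ((ht.coprime_iff_not_dvd).2 T.not_dvd_index).pow_left m
    intro y hy
    obtain ⟨u, hu, c, hc, huc⟩ :=
      CfsgLib.SolvableStructure.exists_mul_of_coprime_index hcop.symm (⟨y, hy⟩ : Y)
    exact ⟨u, ⟨u, hu, rfl⟩, c, hc, (congrArg Subtype.val huc).symm⟩
  have hYT : Y ≤ T' := by
    rw [hY, ← h.commutator_Q, Subgroup.commutator_le]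
    intro y hy q hq
    obtain ⟨u, hu, c, hc, rfl⟩ := hCcov y hy
    have e : ⁅u * c, q⁆ = ⁅u, q⁆ := by
      have hcq : c * q = q * c := ((Subgroup.mem_centralizer_iff.1 hc.2 q hq).symm)
      simp only [commutatorElement_def, mul_inv_rev, mul_assoc]
      rw [← mul_assoc c q, hcq, mul_assoc, mul_inv_cancel_left]
    rw [e, commutatorElement_def, show u * q * u⁻¹ * q⁻¹ = u * (q * u⁻¹ * q⁻¹) by group]
    exact mul_mem hu ((Subgroup.mem_normalizer_iff.1 (hT (h.Q_le hq)) _).1 (inv_mem hu))
  have hYt : IsPGroup t Y := (T.isPGroup'.map Y.subtype).to_le hYT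
  haveI : Group.IsNilpotent Y := hYt.isNilpotent
  -- `Y` has class at most two
  have hclass : ∀ u ∈ ⁅Y, Y⁆, ∀ y ∈ Y, y * u = u * y := by
    rcases h.dichotomy (inferInstance : (⁅Y, Y⁆).Normal) with h1 | ⟨-, h1, -⟩
    · exfalso
      have hsol : Group.IsSolvable Y := inferInstance
      have hne : Y ≠ ⊥ := fun h0 => h.ne_bot (le_bot_iff.1 (hAY.trans h0.le))
      exact (CfsgLib.CoprimeAction.commutator_lt_of_isSolvable Y hne).not_ge h1
    · exact fun u hu y hy => (h1 hy u hu).symm
  set B := Y ⊓ L with hB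
  have hYB : Y ≤ A ⊔ B := by
    have hSB : (S : Subgroup X) ≤ Subgroup.normalizer (B : Set X) := fun s hs =>
      Subgroup.mem_normalizer_iff.2 fun z => and_congr (Subgroup.mem_normalizer_iff.1 (htop _ hs) z)
        (Subgroup.mem_normalizer_iff.1 (Subgroup.le_normalizer (h.le_L hs)) z)
    have hSAB : (S : Subgroup X) ≤ Subgroup.normalizer ((A ⊔ B : Subgroup X) : Set X) :=
      fun s hs => CfsgLib.CoprimeAction.mem_normalizer_of_conj_mem fun z hz => by
        have : (A ⊔ B).map (MulAut.conj s).toMonoidHom ≤ A ⊔ B := by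
          rw [Subgroup.map_sup]
          refine sup_le_sup ?_ ?_
          · rintro _ ⟨w, hw, rfl⟩; exact (Subgroup.mem_normalizer_iff.1 (h.normA hs) w).1 hw
          · rintro _ ⟨w, hw, rfl⟩; exact (Subgroup.mem_normalizer_iff.1 (hSB hs) w).1 hw
        exact this ⟨z, hz, rfl⟩
    have hle : Y ≤ (A ⊔ B) ⊔ (S : Subgroup X) := by
      rcases h.gen (Y ⊔ (S : Subgroup X)) le_sup_right with h1 | ⟨-, h1⟩
      · exact le_trans (le_inf le_rfl (le_sup_left.trans h1)) (le_sup_right.trans le_sup_left)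
      · refine le_sup_left.trans (h1.trans (sup_le (sup_le_sup_right le_sup_left _) ?_))
        rintro z ⟨hzL, hz⟩
        have hz' : z ∈ ((Y ⊔ (S : Subgroup X) : Subgroup X) : Set X) := hz
        rw [Subgroup.coe_mul_of_right_le_normalizer_left _ _ (htop _)] at hz'
        obtain ⟨y, hy, s, hs, rfl⟩ := hz'
        refine mul_mem (Subgroup.mem_sup_left (Subgroup.mem_sup_right ⟨hy, ?_⟩))
          (Subgroup.mem_sup_right hs)
        simpa using mul_mem hzL (L.inv_mem (h.le_L hs))
    intro y hy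
    have hy' : y ∈ (((A ⊔ B) ⊔ (S : Subgroup X) : Subgroup X) : Set X) := hle hy
    rw [Subgroup.coe_mul_of_right_le_normalizer_left _ _ hSAB] at hy'
    obtain ⟨m, hm, s, hs, rfl⟩ := hy'
    have : s ∈ Y ⊓ (S : Subgroup X) := ⟨by
      simpa using mul_mem (inv_mem ((sup_le hAY inf_le_left : A ⊔ B ≤ Y) hm)) hy, hs⟩
    rw [hYS, Subgroup.mem_bot] at this
    subst this
    simpa using hm
  have hYA : Y ≤ A ⊔ ⁅Y, Y⁆ := by
    set D := A ⊔ ⁅Y, Y⁆ with hD
    have hYD : Y ≤ Subgroup.normalizer (D : Set X) := fun y hy =>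
      CfsgLib.CoprimeAction.mem_normalizer_of_conj_mem fun z hz => by
        have : ⁅y, z⁆ ∈ D := Subgroup.mem_sup_right (Subgroup.commutator_mem_commutator hy
          ((sup_le hAY (Subgroup.commutator_le_left Y Y) : D ≤ Y) hz))
        have h2 := D.mul_mem this hz
        rwa [commutatorElement_def, inv_mul_cancel_right] at h2
    have hgen : ∀ y ∈ Y, ∀ q ∈ Q, ⁅y, q⁆ ∈ D := by
      intro y hy
      have hy' := hYB hy
      rw [Subgroup.sup_eq_closure] at hy'
      have key : ∀ w ∈ Subgroup.closure ((A : Set X) ∪ B),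
          w ∈ Y ∧ ∀ q ∈ Q, ⁅w, q⁆ ∈ D := by
        intro w hw
        induction hw using Subgroup.closure_induction with
        | mem w hw =>
          rcases hw with hw | hw
          · refine ⟨hAY hw, fun q hq => Subgroup.mem_sup_left ?_⟩
            rw [commutatorElement_def, show w * q * w⁻¹ * q⁻¹ = w * (q * w⁻¹ * q⁻¹) by group]
            exact mul_mem hw ((Subgroup.mem_normalizer_iff.1 (h.normA (h.Q_le hq)) _).1 (inv_mem hw))
          · refine ⟨hw.1, fun q hq => ?_⟩
            have h1 : ⁅w, q⁆ ∈ Y ⊓ (S : Subgroup X) := by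
              refine ⟨Subgroup.commutator_le_left Y ⊤ (Subgroup.commutator_mem_commutator hw.1 trivial),
                h.Q_le ?_⟩
              rw [commutatorElement_def]
              exact mul_mem ((Subgroup.mem_normalizer_iff.1 (h.normQ hw.2) q).1 hq) (inv_mem hq)
            rw [hYS, Subgroup.mem_bot] at h1
            rw [h1]; exact D.one_mem
        | one => exact ⟨Y.one_mem, fun q _ => by rw [commutatorElement_one_left]; exact D.one_mem⟩
        | mul a b _ _ iha ihb =>
          refine ⟨Y.mul_mem iha.1 ihb.1, fun q hq => ?_⟩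
          rw [show ⁅a * b, q⁆ = a * ⁅b, q⁆ * a⁻¹ * ⁅a, q⁆ by
            simp only [commutatorElement_def]; group]
          exact D.mul_mem ((Subgroup.mem_normalizer_iff.1 (hYD iha.1) _).1 (ihb.2 q hq)) (iha.2 q hq)
        | inv a _ iha =>
          refine ⟨Y.inv_mem iha.1, fun q hq => ?_⟩
          rw [show ⁅a⁻¹, q⁆ = a⁻¹ * ⁅a, q⁆⁻¹ * a⁻¹⁻¹ by simp only [commutatorElement_def]; group]
          exact (Subgroup.mem_normalizer_iff.1 (hYD (Y.inv_mem iha.1)) _).1 (D.inv_mem (iha.2 q hq))
      exact (key y hy').2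
    rw [hY, ← h.commutator_Q, Subgroup.commutator_le]
    exact hgen
  have hYeq : Y = A := by
    refine le_antisymm ?_ hAY
    have hcomm : ⁅Y, Y⁆ ≤ A := by
      have hzc : ∀ y ∈ Y, ∃ a ∈ A, ∃ z ∈ ⁅Y, Y⁆, a * z = y := by
        intro y hy
        have h' : y ∈ ((A ⊔ ⁅Y, Y⁆ : Subgroup X) : Set X) := hYA hy
        rw [Subgroup.coe_mul_of_left_le_normalizer_right A ⁅Y, Y⁆ (le_trans le_top
          (Subgroup.normalizer_eq_top_iff.2 inferInstance).ge)] at h'
        exact h'
      rw [Subgroup.commutator_le]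
      intro y hy w hw
      obtain ⟨a, ha, z, hz, rfl⟩ := hzc y hy
      obtain ⟨b, hb, v, hv, rfl⟩ := hzc w hw
      have h1 : Commute z b := (hclass z hz b (hAY hb)).symm
      have h2 : Commute z v := (hclass z hz v ((Subgroup.commutator_le_left Y Y) hv)).symm
      have h3 : Commute v a := (hclass v hv a (hAY ha)).symm
      have e : ⁅a * z, b * v⁆ = ⁅a, b⁆ := by
        simp only [commutatorElement_def, mul_inv_rev]
        calc a * z * (b * v) * (z⁻¹ * a⁻¹) * (v⁻¹ * b⁻¹)
            = a * (z * (b * v) * z⁻¹) * a⁻¹ * (v⁻¹ * b⁻¹) := by group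
          _ = a * b * (v * a⁻¹ * v⁻¹) * b⁻¹ := by rw [(h1.mul_right h2).eq]; group
          _ = a * b * a⁻¹ * b⁻¹ := by rw [h3.inv_right.eq, mul_inv_cancel_right]
      rw [e, commutatorElement_def]
      exact mul_mem (mul_mem (mul_mem ha hb) (inv_mem ha)) (inv_mem hb)
    exact hYA.trans (sup_le le_rfl hcomm)
  refine ⟨hYeq, t, ht, htp, hYt, ?_⟩
  rw [Subgroup.commutator_eq_bot_iff_le_centralizer]
  intro u hu
  exact Subgroup.mem_centralizer_iff.2 fun y hy => hclass u (Subgroup.commutator_mono hAY hAY hu) y (hAY hy)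

theorem coprime_of_solvable (h : Setting p S A L Q)
    (hs : Group.IsSolvable (Subgroup.normalClosure (A : Set X))) :
    (Nat.card (Subgroup.normalClosure (A : Set X))).Coprime p := by
  set Y := Subgroup.normalClosure (A : Set X) with hY
  have hne : Y ≠ ⊥ := fun h0 => h.ne_bot (le_bot_iff.1 (Subgroup.le_normalClosure.trans h0.le))
  haveI hYn : Y.Normal := Subgroup.normalClosure_normal
  haveI := hs
  have hcen : ∀ u ∈ ⁅Y, Y⁆, ∀ y ∈ Y, y * u = u * y := by
    rcases h.dichotomy (inferInstance : (⁅Y, Y⁆).Normal) with h1 | ⟨-, h1, -⟩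
    · exact absurd h1 (CfsgLib.CoprimeAction.commutator_lt_of_isSolvable Y hne).not_ge
    · exact fun u hu y hy => (h1 hy u hu).symm
  have hnil : Group.IsNilpotent Y := CfsgLib.Cores.isNilpotent_of_commutator_le_centralizer
    fun u hu => Subgroup.mem_centralizer_iff.2 (hcen u hu)
  rw [Nat.coprime_comm, (Fact.out : p.Prime).coprime_iff_not_dvd]
  intro hdvd
  obtain ⟨P⟩ : Nonempty (Sylow p Y) := inferInstance
  haveI hPn : (P : Subgroup Y).Normal := inferInstance
  have hb : (P : Subgroup Y).map Y.subtype = ⊥ := by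
    refine h.p_sub_eq_bot hYn.isSubnormal (Subgroup.map_subtype_le _) ?_ (P.isPGroup'.map _)
    intro g hg
    refine CfsgLib.CoprimeAction.mem_normalizer_of_conj_mem ?_
    rintro _ ⟨z, hz, rfl⟩
    exact ⟨_, hPn.conj_mem z hz ⟨g, hg⟩, rfl⟩
  rw [Subgroup.map_eq_bot_iff_of_injective _ Y.subtype_injective] at hb
  exact P.ne_bot_of_dvd_card hdvd hb

/-- The semisimple case. -/
theorem semisimple_case (h : Setting p S A L Q)
    (hp : ¬ (Nat.card (Subgroup.normalClosure (A : Set X))).Coprime p) :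
    layer ↥(Subgroup.normalClosure (A : Set X)) = ⊤ ∧
      ∀ K₁ K₂ : Subgroup ↥(Subgroup.normalClosure (A : Set X)), IsComponent K₁ → IsComponent K₂ →
        ∃ s ∈ (S : Subgroup X), K₂.map (Subgroup.subtype _) =
          (K₁.map (Subgroup.subtype _)).map (MulAut.conj s).toMonoidHom := by
  classical
  set Y := Subgroup.normalClosure (A : Set X) with hY
  haveI hYn : Y.Normal := Subgroup.normalClosure_normal
  have hAY : A ≤ Y := Subgroup.le_normalClosure
  have hperf : ⁅Y, Y⁆ = Y := by
    refine le_antisymm (Subgroup.commutator_le_left Y Y) ?_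
    rcases h.dichotomy (inferInstance : (⁅Y, Y⁆).Normal) with h1 | ⟨-, h1, -⟩
    · exact h1
    · exfalso
      apply hp
      refine h.coprime_of_solvable ?_
      haveI : Group.IsNilpotent Y := CfsgLib.Cores.isNilpotent_of_commutator_le_centralizer
        fun u hu => Subgroup.mem_centralizer_iff.2 fun y hy => (h1 hy u hu).symm
      infer_instance
  have hYsol : ¬ Group.IsSolvable Y := fun hs => hp (h.coprime_of_solvable hs)
  have hcen : ∀ N : Subgroup X, Y ≤ Subgroup.centralizer (N : Set X) →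
      N.subgroupOf Y ≤ Subgroup.center Y := fun N hc u hu =>
    Subgroup.mem_center_iff.2 fun y => Subtype.ext (hc y.2 u hu).symm
  have htop : layer Y = ⊤ := by
    set E := (layer Y).map Y.subtype with hE
    have hEY : E ≤ Y := Subgroup.map_subtype_le _
    have hEn : E.Normal := inferInstance
    rcases h.dichotomy hEn with h1 | ⟨-, h1, -⟩
    · rw [eq_top_iff]
      intro y _
      obtain ⟨z, hz, hzy⟩ := h1 y.2
      exact Subtype.ext hzy ▸ hz
    exfalso
    have hle : layer Y ≤ Subgroup.center Y := fun u hu =>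
      (hcen E h1) (show (u : X) ∈ E from ⟨u, hu, rfl⟩)
    have hbot : layer Y = ⊥ := by
      rw [← CfsgLib.Cores.commutator_layer_self, Subgroup.commutator_eq_bot_iff_le_centralizer]
      exact hle.trans (Subgroup.center_le_centralizer _)
    have hgf : generalizedFittingSubgroup Y = fittingSubgroup Y := by
      rw [generalizedFittingSubgroup, hbot, bot_sup_eq]
    have hFn : ((fittingSubgroup Y).map Y.subtype).Normal := by
      haveI : (fittingSubgroup Y).Characteristic := by
        refine Subgroup.characteristic_iff_map_le.2 fun e => ?_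
        exact (CfsgLib.Cores.map_fittingSubgroup_equiv e).le
      infer_instance
    haveI : Group.IsNilpotent (fittingSubgroup Y) := CfsgLib.Cores.isNilpotent_fittingSubgroup
    rcases h.dichotomy hFn with h2 | ⟨-, h2, -⟩
    · apply hYsol
      have htop : fittingSubgroup Y = ⊤ := by
        rw [eq_top_iff]
        intro y _
        obtain ⟨z, hz, hzy⟩ := h2 y.2
        exact Subtype.ext hzy ▸ hz
      haveI : Group.IsNilpotent Y := CfsgLib.Cores.fittingSubgroup_eq_top_iff.1 htop
      infer_instance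
    · apply hYsol
      have hc := CfsgLib.Cores.centralizer_generalizedFittingSubgroup_le (G := Y)
      rw [hgf] at hc
      have hz : fittingSubgroup Y ≤ Subgroup.center Y := fun u hu =>
        hcen ((fittingSubgroup Y).map Y.subtype) h2 (show (u : X) ∈ (fittingSubgroup Y).map Y.subtype from ⟨u, hu, rfl⟩)
      have htop : (⊤ : Subgroup Y) ≤ fittingSubgroup Y := le_trans
        (fun y _ => Subgroup.mem_centralizer_iff.2 fun u hu =>
          (Subgroup.mem_center_iff.1 (hz hu) y).symm) hc
      haveI : Group.IsNilpotent Y := CfsgLib.Cores.fittingSubgroup_eq_top_iff.1 (top_le_iff.1 htop)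
      infer_instance
  refine ⟨htop, ?_⟩
  -- components as subgroups of `X`
  have hYsn : Y.IsSubnormal := hYn.isSubnormal
  have hcompY : ∀ K : Subgroup Y, IsComponent K → IsComponent (K.map Y.subtype) :=
    fun K hK => CfsgLib.Cores.isComponent_map_subtype hYsn hK
  have hYnorm : ∀ J : Subgroup X, IsComponent J → J ≤ Y → Y ≤ Subgroup.normalizer (J : Set X) := by
    intro J hJ hJY
    have h1 := CfsgLib.Cores.layer_le_normalizer (CfsgLib.Cores.isComponent_subgroupOf hJ hJY)
    rw [htop] at h1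
    intro y hy
    refine CfsgLib.CoprimeAction.mem_normalizer_of_conj_mem fun z hz => ?_
    exact (Subgroup.mem_normalizer_iff.1 (h1 (Subgroup.mem_top (⟨y, hy⟩ : Y))) ⟨z, hJY hz⟩).1 hz
  have hmove : ∀ (J : Subgroup X) (g : X), IsComponent J → J ≤ Y →
      IsComponent (J.map (MulAut.conj g).toMonoidHom) ∧ J.map (MulAut.conj g).toMonoidHom ≤ Y := by
    refine fun J g hJ hJY => ⟨CfsgLib.Cores.isComponent_map_equiv hJ (MulAut.conj g), ?_⟩
    rintro _ ⟨z, hz, rfl⟩
    exact hYn.conj_mem z (hJY hz) g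
  -- the `S`-orbit product of a component
  let O : Subgroup X → Subgroup X := fun J =>
    ⨆ s : (S : Subgroup X), J.map (MulAut.conj (s : X)).toMonoidHom
  have hJO : ∀ J : Subgroup X, J ≤ O J := fun J => le_trans
    (show J ≤ J.map (MulAut.conj (((1 : (S : Subgroup X))) : X)).toMonoidHom from
      fun z hz => ⟨z, hz, by simp⟩)
    (le_iSup (fun s : (S : Subgroup X) => J.map (MulAut.conj (s : X)).toMonoidHom) 1)
  have hOY : ∀ J : Subgroup X, IsComponent J → J ≤ Y → O J ≤ Y := fun J hJ hJY =>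
    iSup_le fun s => (hmove J s hJ hJY).2
  have hSO : ∀ J : Subgroup X, (S : Subgroup X) ≤ Subgroup.normalizer (O J : Set X) := by
    intro J s hs
    refine CfsgLib.CoprimeAction.mem_normalizer_of_conj_mem fun z hz => ?_
    have : (O J).map (MulAut.conj s).toMonoidHom ≤ O J := by
      show (⨆ s : (S : Subgroup X), J.map (MulAut.conj (s : X)).toMonoidHom).map _ ≤ _
      rw [Subgroup.map_iSup]
      refine iSup_le fun t => le_trans (le_of_eq ?_)
        (le_iSup (fun s : (S : Subgroup X) => J.map (MulAut.conj (s : X)).toMonoidHom) (⟨s, hs⟩ * t))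
      rw [Subgroup.map_map]
      congr 1
      ext x
      simp [mul_assoc]
    exact this ⟨z, hz, rfl⟩
  have hYO : ∀ J : Subgroup X, IsComponent J → J ≤ Y → Y ≤ Subgroup.normalizer (O J : Set X) := by
    intro J hJ hJY y hy
    refine CfsgLib.CoprimeAction.mem_normalizer_of_conj_mem fun z hz => ?_
    have : (O J).map (MulAut.conj y).toMonoidHom ≤ O J := by
      show (⨆ s : (S : Subgroup X), J.map (MulAut.conj (s : X)).toMonoidHom).map _ ≤ _
      rw [Subgroup.map_iSup]
      refine iSup_le fun t => le_trans ?_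
        (le_iSup (fun s : (S : Subgroup X) => J.map (MulAut.conj (s : X)).toMonoidHom) t)
      rintro _ ⟨w, hw, rfl⟩
      exact (Subgroup.mem_normalizer_iff.1
        (hYnorm _ (hmove J t hJ hJY).1 (hmove J t hJ hJY).2 hy) w).1 hw
    exact this ⟨z, hz, rfl⟩
  have hkey : ∀ J : Subgroup X, IsComponent J → J ≤ Y →
      ¬ J ≤ Subgroup.centralizer (Q : Set X) → A ≤ O J := by
    intro J hJ hJY hJQ
    refine (h.le_or_le (hSO J)).resolve_right fun hL => hJQ ?_
    have hsn : (O J).IsSubnormal := by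
      have h1 : ((O J).subgroupOf Y).Normal :=
        Subgroup.normal_subgroupOf_of_le_normalizer (hYO J hJ hJY)
      have h2 := h1.isSubnormal.trans' hYsn
      rwa [Subgroup.map_subgroupOf_eq_of_le (hOY J hJ hJY)] at h2
    exact Subgroup.le_centralizer_iff.1
      ((h.centralizes_of_le hsn hL (h.Q_le.trans (hSO J))).trans (Subgroup.centralizer_le (hJO J)))
  obtain ⟨J, hJ, hJY, hJQ⟩ : ∃ J : Subgroup X, IsComponent J ∧ J ≤ Y ∧
      ¬ J ≤ Subgroup.centralizer (Q : Set X) := by
    by_contra hno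
    push Not at hno
    have hYQ : Y ≤ Subgroup.centralizer (Q : Set X) := by
      intro y hy
      have h1 : layer Y ≤ (Subgroup.centralizer (Q : Set X)).comap Y.subtype :=
        CfsgLib.Cores.layer_le_iff.2 fun K hK z hz =>
          hno _ (hcompY K hK) (Subgroup.map_subtype_le _) ⟨z, hz, rfl⟩
      rw [htop] at h1
      exact h1 (Subgroup.mem_top (⟨y, hy⟩ : Y))
    have := h.commutator_Q
    rw [← hY, Subgroup.commutator_eq_bot_iff_le_centralizer.2 hYQ] at this
    exact hYsol (this ▸ (inferInstance : Group.IsSolvable (⊥ : Subgroup X)))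
  -- every other uncentralised component is in the orbit
  have horbit : ∀ J' : Subgroup X, IsComponent J' → J' ≤ Y →
      ¬ J' ≤ Subgroup.centralizer (Q : Set X) →
      ∃ s ∈ (S : Subgroup X), J' = J.map (MulAut.conj s).toMonoidHom := by
    intro J' hJ' hJ'Y hJ'Q
    by_contra hno
    push Not at hno
    have hcomm : O J ≤ Subgroup.centralizer (O J' : Set X) := by
      refine iSup_le fun s => Subgroup.le_centralizer_iff.1 (iSup_le fun t => ?_)
      refine CfsgLib.Cores.le_centralizer_of_isComponent_ne (hmove J' t hJ' hJ'Y).1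
        (hmove J s hJ hJY).1 fun heq => hno ((t : X)⁻¹ * s) (mul_mem (inv_mem t.2) s.2) ?_
      have h2 := congrArg (Subgroup.map (MulAut.conj (t : X)⁻¹).toMonoidHom) heq
      rw [Subgroup.map_map, Subgroup.map_map] at h2
      convert h2 using 1
      · ext x; simp [mul_assoc]
      · congr 1; ext x; simp [mul_assoc]
    apply hYsol
    have hA1 := hkey J hJ hJY hJQ
    have hA2 := hkey J' hJ' hJ'Y hJ'Q
    have hAab : A ≤ Subgroup.centralizer (A : Set X) := fun a ha => Subgroup.mem_centralizer_iff.2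
      fun b hb => Subgroup.mem_centralizer_iff.1 (hcomm (hA1 ha)) b (hA2 hb)
    have hlay : layer Y ≤ (Subgroup.centralizer (A : Set X)).comap Y.subtype := by
      refine CfsgLib.Cores.layer_le_iff.2 fun K hK z hz => ?_
      set Kx := K.map Y.subtype
      by_cases hK1 : ∃ s ∈ (S : Subgroup X), Kx = J.map (MulAut.conj s).toMonoidHom
      · obtain ⟨s, hs, hKs⟩ := hK1
        have hzO : (z : X) ∈ O J :=
          le_iSup (fun s : (S : Subgroup X) => J.map (MulAut.conj (s : X)).toMonoidHom) ⟨s, hs⟩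
            (hKs ▸ (⟨z, hz, rfl⟩ : (z : X) ∈ Kx))
        exact Subgroup.centralizer_le hA2 (hcomm hzO)
      · push Not at hK1
        refine Subgroup.centralizer_le hA1 ?_
        have : Kx ≤ Subgroup.centralizer (O J : Set X) := Subgroup.le_centralizer_iff.1
          (iSup_le fun s => CfsgLib.Cores.le_centralizer_of_isComponent_ne
            (hmove J s hJ hJY).1 (hcompY K hK) fun heq => hK1 s s.2 heq.symm)
        exact this ⟨z, hz, rfl⟩
    rw [htop] at hlay
    have hYc : Y ≤ Subgroup.centralizer (A : Set X) := fun y hy =>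
      hlay (Subgroup.mem_top (⟨y, hy⟩ : Y))
    have hYab : Y ≤ Subgroup.centralizer (Y : Set X) :=
      Subgroup.normalClosure_le_normal (Subgroup.le_centralizer_iff.1 hYc)
    haveI : IsMulCommutative Y := Subgroup.le_centralizer_iff_isMulCommutative.1 hYab
    exact Group.isSolvable_of_comm fun a b => mul_comm' a b
  have hONn : (O J).Normal := by
    refine Subgroup.normalizer_eq_top_iff.1 (top_le_iff.1 (h.sup_eq_top.ge.trans
      (sup_le (hAY.trans (hYO J hJ hJY)) fun l hl => ?_)))
    refine CfsgLib.CoprimeAction.mem_normalizer_of_conj_mem fun z hz => ?_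
    have : (O J).map (MulAut.conj l).toMonoidHom ≤ O J := by
      show (⨆ s : (S : Subgroup X), J.map (MulAut.conj (s : X)).toMonoidHom).map _ ≤ _
      rw [Subgroup.map_iSup]
      refine iSup_le fun t => ?_
      have hls : l * (t : X) ∈ L := mul_mem hl (h.le_L t.2)
      obtain ⟨s, hs, he⟩ := horbit _ (hmove J (l * t) hJ hJY).1 (hmove J (l * t) hJ hJY).2 fun hc =>
        hJQ fun w hw => Subgroup.mem_centralizer_iff.2 fun q hq => by
          have := Subgroup.mem_centralizer_iff.1 (hc ⟨w, hw, rfl⟩) _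
            ((Subgroup.mem_normalizer_iff.1 (h.normQ hls) q).1 hq)
          apply (MulAut.conj (l * (t : X))).injective
          rw [map_mul (MulAut.conj (l * (t : X))), map_mul (MulAut.conj (l * (t : X)))]
          exact this
      refine le_trans (le_of_eq ?_)
        (le_iSup (fun s : (S : Subgroup X) => J.map (MulAut.conj (s : X)).toMonoidHom) ⟨s, hs⟩)
      show _ = J.map (MulAut.conj s).toMonoidHom
      rw [← he, Subgroup.map_map]
      congr 1
      ext x
      simp [mul_assoc]
    exact this ⟨z, hz, rfl⟩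
  have hYle : Y ≤ O J := Subgroup.normalClosure_le_normal (hkey J hJ hJY hJQ)
  have hall : ∀ K : Subgroup Y, IsComponent K →
      ∃ s ∈ (S : Subgroup X), K.map Y.subtype = J.map (MulAut.conj s).toMonoidHom := by
    intro K hK
    by_contra hno
    push Not at hno
    have h1 : Y ≤ Subgroup.centralizer (K.map Y.subtype : Set X) := hYle.trans (iSup_le fun s =>
      CfsgLib.Cores.le_centralizer_of_isComponent_ne (hmove J s hJ hJY).1 (hcompY K hK)
        fun heq => hno s s.2 heq.symm)
    apply CfsgLib.Cores.ne_bot_of_isComponent hK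
    rw [← CfsgLib.Cores.commutator_self_eq_of_isComponent hK,
      Subgroup.commutator_eq_bot_iff_le_centralizer]
    intro a ha
    refine Subgroup.mem_centralizer_iff.2 fun b hb => Subtype.ext ?_
    exact (h1 a.2 b ⟨b, hb, rfl⟩)
  intro K₁ K₂ hK₁ hK₂
  obtain ⟨s, hs, h1⟩ := hall K₁ hK₁
  obtain ⟨t, ht, h2⟩ := hall K₂ hK₂
  refine ⟨t * s⁻¹, mul_mem ht (inv_mem hs), ?_⟩
  rw [h1, h2, Subgroup.map_map]
  congr 1
  ext x
  simp [mul_assoc]

end Setting

end CfsgLib.IsolatedPMin
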