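import Cfsg.Agent.Lib.IsolatedPMin.Transfer

/-!
`Y/O_p(Y)` is the image of the normal subgroup `Y` in `G/O_p(G)`.
-/

set_option autoImplicit false

namespace CfsgLib.IsolatedPMin

open Cfsg

variable {G : Type*} [Group G] {p : ℕ}

theorem pCore_eq_ker {Y : Subgroup G} (hY : Y.Normal) :
    pCore p ↥Y = ((QuotientGroup.mk' (pCore p G)).comp Y.subtype).ker := by
  have h := CfsgLib.Cores.map_subtype_pCore_eq (p := p) hY.isSubnormal
  ext y
  rw [MonoidHom.mem_ker, MonoidHom.comp_apply, QuotientGroup.mk'_apply, QuotientGroup.eq_one_iff]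
  constructor
  · intro hy
    exact (h.le ⟨y, hy, rfl⟩).1
  · intro hy
    obtain ⟨z, hz, hzy⟩ := h.ge ⟨hy, y.2⟩
    exact Subtype.ext hzy ▸ hz

/-- `Y/O_p(Y) ≃ Y O_p(G)/O_p(G)`. -/
noncomputable def quotEquiv {Y : Subgroup G} (hY : Y.Normal) :
    ↥Y ⧸ pCore p ↥Y ≃* ↥(Y.map (QuotientGroup.mk' (pCore p G))) :=
  (QuotientGroup.quotientMulEquivOfEq ((pCore_eq_ker hY).trans (by
      ext y
      simp [MonoidHom.mem_ker, Subtype.ext_iff]))).trans
    (QuotientGroup.quotientKerEquivOfSurjective _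
      ((QuotientGroup.mk' (pCore p G)).subgroupMap_surjective Y))

theorem quotEquiv_mk {Y : Subgroup G} (hY : Y.Normal) (y : Y) :
    ((quotEquiv (p := p) hY (y : ↥Y ⧸ pCore p ↥Y) : ↥(Y.map _)) : G ⧸ pCore p G) =
      ((y : G) : G ⧸ pCore p G) := rfl

/-- Pulling back a subgroup of `Y/O_p(Y)` and pushing it to `G`. -/
theorem map_comap_eq {Y : Subgroup G} (hY : Y.Normal) (K : Subgroup (↥Y ⧸ pCore p ↥Y)) :
    (K.comap (QuotientGroup.mk' (pCore p ↥Y))).map Y.subtype =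
      Y ⊓ ((K.map (quotEquiv hY).toMonoidHom).map (Subgroup.subtype _)).comap
        (QuotientGroup.mk' (pCore p G)) := by
  ext g
  constructor
  · rintro ⟨y, hy, rfl⟩
    exact ⟨y.2, quotEquiv hY (y : ↥Y ⧸ pCore p ↥Y), ⟨_, hy, rfl⟩, quotEquiv_mk hY y⟩
  · rintro ⟨hg, z, ⟨k, hk, hkz⟩, hz⟩
    refine ⟨⟨g, hg⟩, ?_, rfl⟩
    have : k = ((⟨g, hg⟩ : Y) : ↥Y ⧸ pCore p ↥Y) := (quotEquiv hY).injective (Subtype.ext (by
      rw [quotEquiv_mk]
      exact (congrArg Subtype.val hkz).trans hz))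
    rw [this] at hk
    exact hk

theorem map_conj_eq {Y : Subgroup G} (hY : Y.Normal) {J J' : Subgroup (G ⧸ pCore p G)} {s : G}
    (h : J' = J.map (MulAut.conj (s : G ⧸ pCore p G)).toMonoidHom) :
    Y ⊓ J'.comap (QuotientGroup.mk' (pCore p G)) =
      (Y ⊓ J.comap (QuotientGroup.mk' (pCore p G))).map (MulAut.conj s).toMonoidHom := by
  subst h
  ext g
  constructor
  · rintro ⟨hg, z, hz, hzg⟩
    refine ⟨s⁻¹ * g * s, ⟨?_, ?_⟩, by simp [mul_assoc]⟩
    · simpa using hY.conj_mem g hg s⁻¹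
    · have : z = ((s⁻¹ * g * s : G) : G ⧸ pCore p G) := by
        rw [QuotientGroup.mk_mul, QuotientGroup.mk_mul, QuotientGroup.mk_inv,
          ← QuotientGroup.mk'_apply (pCore p G) g, ← hzg]
        simp [mul_assoc]
      rw [this] at hz
      exact hz
  · rintro ⟨w, ⟨hw, hwJ⟩, rfl⟩
    exact ⟨hY.conj_mem w hw s, (w : G ⧸ pCore p G), hwJ, by simp⟩

end CfsgLib.IsolatedPMin
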