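import Cfsg.Agent.Lib.IsolatedPMin.Core
import Cfsg.Agent.Lib.StronglyPEmbedded.PMinimal

/-!
The isolated `p`-minimal configuration modulo `O_p(G)`.
-/

set_option autoImplicit false
set_option linter.style.haveILetI false

namespace CfsgLib.IsolatedPMin

open Cfsg
open scoped Pointwise

variable {G : Type*} [Group G] [Finite G] {p : ℕ} [Fact p.Prime]

omit [Finite G] in
theorem le_normalizer_map_of_normal {P : Subgroup G} (N : Subgroup P) [N.Normal] :
    P ≤ Subgroup.normalizer (N.map P.subtype : Set G) := fun x hx =>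
  Subgroup.le_normalizer_map P.subtype ⟨⟨x, hx⟩, by rw [Subgroup.normalizer_eq_top]; trivial, rfl⟩

/-- Every overgroup `H` of a Sylow subgroup `S` is generated by `N_H(S)` and the `p`-minimal
subgroups of `H` containing `S`. -/
theorem le_generated (S : Sylow p G) : ∀ H : Subgroup G, (S : Subgroup G) ≤ H →
    H ≤ (H ⊓ Subgroup.normalizer ((S : Subgroup G) : Set G)) ⊔
      ⨆ P : {P : Subgroup G // (S : Subgroup G) ≤ P ∧ P ≤ H ∧ IsPMinimal p ↥P}, (P : Subgroup G) := by
  intro H
  induction H using WellFoundedLT.induction with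
  | _ H ih =>
    intro hSH
    set T := S.subtype hSH
    have hTmap : (T : Subgroup H).map H.subtype = S := by
      rw [Sylow.coe_subtype, Subgroup.map_subgroupOf_eq_of_le hSH]
    by_cases hn : (T : Subgroup H).Normal
    · refine le_sup_of_le_left (le_inf le_rfl ?_)
      rw [← hTmap]
      intro h hh
      refine Subgroup.le_normalizer_map H.subtype ⟨⟨h, hh⟩, ?_, rfl⟩
      rw [Subgroup.normalizer_eq_top_iff.2 hn]
      exact Subgroup.mem_top _
    by_cases hu : ∃! M : Subgroup H, IsCoatom M ∧ (T : Subgroup H) ≤ M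
    · have hmin : IsPMinimal p H := by
        intro U
        obtain ⟨g, rfl⟩ := MulAction.exists_smul_eq H T U
        refine ⟨fun h => hn ?_, ?_⟩
        · rw [Sylow.coe_subgroup_smul] at h
          have h2 : (T : Subgroup H) =
              ((MulAut.conj g • (T : Subgroup H)) : Subgroup H).comap (MulAut.conj g).toMonoidHom := by
            ext x
            rw [Subgroup.mem_comap, Subgroup.mem_pointwise_smul_iff_inv_smul_mem]
            simp [MulAut.smul_def, mul_assoc]
          rw [h2]
          exact h.comap _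
        · obtain ⟨M, ⟨hM1, hM2⟩, huniq⟩ := hu
          have key : ∀ (a : H) (A : Subgroup H), IsCoatom A → IsCoatom (MulAut.conj a • A) :=
            fun a A hA => (OrderIso.isCoatom_iff (MulAut.conj a).mapSubgroup A).2 hA
          refine ⟨MulAut.conj g • M, ⟨key g M hM1, ?_⟩, fun N hN => ?_⟩
          · rw [Sylow.coe_subgroup_smul, Subgroup.pointwise_smul_le_pointwise_smul_iff]
            exact hM2
          · have h1 : (MulAut.conj g)⁻¹ • N = M := by
              refine huniq _ ⟨?_, ?_⟩
              · rw [← map_inv]; exact key _ N hN.1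
              · rw [← Subgroup.pointwise_smul_le_pointwise_smul_iff (a := MulAut.conj g), smul_inv_smul]
                exact (Sylow.coe_subgroup_smul).ge.trans hN.2
            rw [← h1, smul_inv_smul]
      exact le_sup_of_le_right (le_iSup
        (fun P : {P : Subgroup G // (S : Subgroup G) ≤ P ∧ P ≤ H ∧ IsPMinimal p ↥P} => (P : Subgroup G))
        ⟨H, hSH, le_rfl, hmin⟩)
    · have hTne : (T : Subgroup H) ≠ ⊤ := fun h => hn (by rw [h]; infer_instance)
      obtain ⟨M₁, hM₁, hT₁⟩ := (eq_top_or_exists_le_coatom (T : Subgroup H)).resolve_left hTne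
      obtain ⟨M₂, ⟨hM₂, hT₂⟩, hne⟩ : ∃ M₂, (IsCoatom M₂ ∧ (T : Subgroup H) ≤ M₂) ∧ M₂ ≠ M₁ := by
        by_contra h
        push Not at h
        exact hu ⟨M₁, ⟨hM₁, hT₁⟩, h⟩
      have hsub : ∀ M : Subgroup H, IsCoatom M → (T : Subgroup H) ≤ M →
          M.map H.subtype ≤ (H ⊓ Subgroup.normalizer ((S : Subgroup G) : Set G)) ⊔
            ⨆ P : {P : Subgroup G // (S : Subgroup G) ≤ P ∧ P ≤ H ∧ IsPMinimal p ↥P},
              (P : Subgroup G) := by
        intro M hM hTM
        have hlt : M.map H.subtype < H := lt_of_le_of_ne (Subgroup.map_subtype_le _) fun h =>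
          hM.1 (by
            rw [← Subgroup.comap_map_eq_self_of_injective H.subtype_injective M, h]
            exact Subgroup.subgroupOf_self H)
        refine (ih _ hlt (hTmap.ge.trans (Subgroup.map_mono hTM))).trans
          (sup_le_sup (inf_le_inf_right _ hlt.le) (iSup_le fun P => ?_))
        exact le_iSup (fun P : {P : Subgroup G // (S : Subgroup G) ≤ P ∧ P ≤ H ∧ IsPMinimal p ↥P} =>
          (P : Subgroup G)) ⟨P, P.2.1, P.2.2.1.trans hlt.le, P.2.2.2⟩
      have htop : M₁ ⊔ M₂ = ⊤ := hM₁.2 _ (lt_of_le_of_ne le_sup_left fun h => hne (by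
        rcases eq_or_lt_of_le (le_sup_right.trans h.ge : M₂ ≤ M₁) with h2 | h2
        · exact h2
        · exact absurd (hM₂.2 _ h2) hM₁.1))
      calc H = (M₁ ⊔ M₂).map H.subtype := by
            rw [htop, ← MonoidHom.range_eq_map, Subgroup.range_subtype]
        _ ≤ _ := by
            rw [Subgroup.map_sup]
            exact sup_le (hsub _ hM₁ hT₁) (hsub _ hM₂ hT₂)

/-- The residual of a `p`-minimal group lies in the normal closure of a `p`-subgroup outside
the `p`-core. -/
theorem pResidual_le_normalClosure {P : Type*} [Group P] [Finite P] (hP : IsPMinimal p P)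
    (S : Sylow p P) {Q : Subgroup P} (hQS : Q ≤ (S : Subgroup P)) (hQ : ¬ Q ≤ pCore p P) :
    pResidual p P ≤ Subgroup.normalClosure (Q : Set P) := by
  obtain ⟨M, ⟨hM, hSM⟩, -⟩ := (hP S).2
  haveI := Subgroup.normalClosure_normal (s := (Q : Set P))
  refine CfsgLib.StronglyPEmbedded.pResidual_le_of_not_le hP hM hSM fun hle => hQ ?_
  exact (le_inf Subgroup.le_normalClosure hQS).trans
    (CfsgLib.StronglyPEmbedded.inf_sylow_le_pCore_of_normal hP hM hSM hle)

section

variable (S : Sylow p G) (P L : Subgroup G) (hSP : (S : Subgroup G) ≤ P)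
  (hPmin : IsPMinimal p ↥P)
  (hL : L = Subgroup.normalizer ((S : Subgroup G) : Set G) ⊔
    ⨆ P' : {P' : Subgroup G // (S : Subgroup G) ≤ P' ∧ IsPMinimal p ↥P' ∧ P' ≠ P}, (P' : Subgroup G))

include hSP in
omit hPmin hL in
theorem residual_sup_sylow : (pResidual p ↥P).map P.subtype ⊔ (S : Subgroup G) = P := by
  conv_lhs => rw [← Subgroup.map_subgroupOf_eq_of_le hSP, ← Subgroup.map_sup]
  rw [← Sylow.coe_subtype S hSP, CfsgLib.StronglyPEmbedded.pResidual_sup_sylow,
    ← MonoidHom.range_eq_map, Subgroup.range_subtype]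

omit [Finite G] [Fact p.Prime] in
theorem residual_le_closure (P : Subgroup G) : (pResidual p ↥P).map P.subtype ≤
    Subgroup.closure {a : G | a ∈ (pResidual p ↥P).map P.subtype ∧ (orderOf a).Coprime p} := by
  conv_lhs => rw [pResidual, MonoidHom.map_closure]
  refine Subgroup.closure_mono ?_
  rintro _ ⟨x, hx, rfl⟩
  exact ⟨⟨x, Subgroup.subset_closure hx, rfl⟩, by
    rw [Subgroup.coe_subtype, Subgroup.orderOf_coe]; exact hx⟩

include hSP hPmin in
omit hL in
theorem residual_not_pgroup {T : Subgroup G} (hT : IsPGroup p T) :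
    ¬ (pResidual p ↥P).map P.subtype ≤ T := by
  intro hle
  refine (hPmin (S.subtype hSP)).1 ?_
  have hbot : (pResidual p ↥P).map P.subtype = ⊥ := by
    rw [eq_bot_iff]
    refine (residual_le_closure P).trans ((Subgroup.closure_le _).2 ?_)
    rintro a ⟨ha, hao⟩
    exact CfsgLib.StronglyPEmbedded.eq_one_of_mem_pGroup_of_coprime hT (hle ha) hao
  have hP : P = S := by
    have := residual_sup_sylow S P hSP
    rw [hbot, bot_sup_eq] at this
    exact this.symm
  rw [Sylow.coe_subtype, Subgroup.subgroupOf_eq_top.2 hP.le]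
  infer_instance

include hSP hPmin hL

theorem le_L' : (S : Subgroup G) ≤ L := hL ▸ (Subgroup.le_normalizer.trans le_sup_left)

theorem pCore_L_le_sylow : (pCore p ↥L).map L.subtype ≤ (S : Subgroup G) := by
  have hSL := le_L' S P L hSP hPmin hL
  have := Subgroup.map_mono (f := L.subtype) (CfsgLib.Cores.pCore_le_sylow (S.subtype hSL))
  rwa [Sylow.coe_subtype, Subgroup.map_subgroupOf_eq_of_le hSL] at this

theorem gen_aux {H : Subgroup G} (hSH : (S : Subgroup G) ≤ H) :
    H ≤ L ∨ ((pResidual p ↥P).map P.subtype ≤ H ∧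
      H ≤ ((pResidual p ↥P).map P.subtype ⊔ (S : Subgroup G)) ⊔ (L ⊓ H)) := by
  by_cases hPH : P ≤ H
  · refine Or.inr ⟨(Subgroup.map_subtype_le _).trans hPH, (le_generated S H hSH).trans
      (sup_le ?_ (iSup_le fun P' => ?_))⟩
    · exact le_sup_of_le_right (le_inf (inf_le_right.trans (hL ▸ le_sup_left)) inf_le_left)
    · by_cases he : (P' : Subgroup G) = P
      · rw [residual_sup_sylow S P hSP, he]; exact le_sup_left
      · refine le_sup_of_le_right (le_inf ?_ P'.2.2.1)
        rw [hL]
        exact le_sup_of_le_right (le_iSup (fun P' : {P' : Subgroup G //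
          (S : Subgroup G) ≤ P' ∧ IsPMinimal p ↥P' ∧ P' ≠ P} => (P' : Subgroup G))
          ⟨P', P'.2.1, P'.2.2.2, he⟩)
  · refine Or.inl ((le_generated S H hSH).trans (sup_le (inf_le_right.trans (hL ▸ le_sup_left))
      (iSup_le fun P' => ?_)))
    rw [hL]
    exact le_sup_of_le_right (le_iSup (fun P' : {P' : Subgroup G //
      (S : Subgroup G) ≤ P' ∧ IsPMinimal p ↥P' ∧ P' ≠ P} => (P' : Subgroup G))
      ⟨P', P'.2.1, P'.2.2.2, fun he => hPH (he ▸ P'.2.2.1)⟩)

variable (hiso : ¬ (pCore p ↥L).map L.subtype ≤ (pCore p ↥P).map P.subtype)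

include hiso

/-- The configuration passes to `G/O_p(G)`. -/
theorem setting :
    Setting p (S.mapSurjective (QuotientGroup.mk'_surjective (pCore p G)))
      (((pResidual p ↥P).map P.subtype).map (QuotientGroup.mk' (pCore p G)))
      (L.map (QuotientGroup.mk' (pCore p G)))
      (((pCore p ↥L).map L.subtype).map (QuotientGroup.mk' (pCore p G))) := by
  set π := QuotientGroup.mk' (pCore p G)
  have hπ : Function.Surjective π := QuotientGroup.mk'_surjective _
  set A := (pResidual p ↥P).map P.subtype with hA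
  set Q := (pCore p ↥L).map L.subtype with hQ
  have hSmap : ((S.mapSurjective hπ : Sylow p (G ⧸ pCore p G)) : Subgroup (G ⧸ pCore p G)) =
      (S : Subgroup G).map π := rfl
  refine ⟨?_, ?_, ?_, ?_, ?_, ?_, ?_, ?_, CfsgLib.Cores.pCore_quotient_pCore p G⟩
  · rw [hSmap]
    refine (Subgroup.map_mono ?_).trans (Subgroup.le_normalizer_map π)
    haveI : (pResidual p ↥P).Normal := CfsgLib.StronglyPEmbedded.normal_pResidual'
    exact hSP.trans (le_normalizer_map_of_normal _)
  · rw [hSmap]; exact Subgroup.map_mono (le_L' S P L hSP hPmin hL)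
  · rw [hSmap]; exact Subgroup.map_mono (pCore_L_le_sylow S P L hSP hPmin hL)
  · refine (Subgroup.map_mono ?_).trans (Subgroup.le_normalizer_map π)
    exact Subgroup.le_normalizer.trans
      (CfsgLib.Cores.normalizer_le_normalizer_map_subtype L (pCore p ↥L))
  · intro H hSH
    rw [hSmap] at hSH ⊢
    have hH : (H.comap π).map π = H := Subgroup.map_comap_eq_self_of_surjective hπ H
    rcases gen_aux S P L hSP hPmin hL (Subgroup.map_le_iff_le_comap.1 hSH) with h | ⟨h1, h2⟩
    · exact Or.inl (hH ▸ Subgroup.map_mono h)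
    · refine Or.inr ⟨Subgroup.map_le_iff_le_comap.2 h1, ?_⟩
      refine le_trans (le_of_eq hH.symm) ((Subgroup.map_mono h2).trans ?_)
      rw [Subgroup.map_sup, Subgroup.map_sup]
      exact sup_le_sup le_rfl ((Subgroup.map_inf_le _ _ π).trans (inf_le_inf_left _ hH.le))
  · refine le_trans (Subgroup.map_mono (?_ : A ≤ Subgroup.normalClosure (Q : Set G))) ?_
    · set T := S.subtype hSP
      have hQP : Q ≤ P := (pCore_L_le_sylow S P L hSP hPmin hL).trans hSP
      have h1 := pResidual_le_normalClosure hPmin T (Q := Q.subgroupOf P)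
        (fun x hx => pCore_L_le_sylow S P L hSP hPmin hL hx)
        (fun hle => hiso (by
          show Q ≤ _
          rw [← Subgroup.map_subgroupOf_eq_of_le hQP]; exact Subgroup.map_mono hle))
      refine (Subgroup.map_mono h1).trans (Subgroup.map_le_iff_le_comap.2 ?_)
      exact Subgroup.normalClosure_le_normal fun x hx => Subgroup.le_normalClosure (show (x : G) ∈ Q from hx)
    · rw [Subgroup.map_normalClosure _ _ hπ]
      exact le_rfl
  · refine le_trans (Subgroup.map_mono (residual_le_closure P)) ?_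
    rw [MonoidHom.map_closure]
    refine Subgroup.closure_mono ?_
    rintro _ ⟨a, ⟨ha, hao⟩, rfl⟩
    exact ⟨Subgroup.mem_map_of_mem π ha, hao.coprime_dvd_left (orderOf_map_dvd π a)⟩
  · intro h0
    rw [Subgroup.map_eq_bot_iff, QuotientGroup.ker_mk'] at h0
    exact residual_not_pgroup S P hSP hPmin (CfsgLib.Cores.isPGroup_pCore p G) h0

variable (Y : Subgroup G)
  (hY : Y = Subgroup.normalClosure (((pResidual p ↥P).map P.subtype : Subgroup G) : Set G))

include hY

theorem map_Y : Y.map (QuotientGroup.mk' (pCore p G)) =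
    Subgroup.normalClosure (((((pResidual p ↥P).map P.subtype).map
      (QuotientGroup.mk' (pCore p G))) : Subgroup (G ⧸ pCore p G)) : Set (G ⧸ pCore p G)) := by
  rw [hY, Subgroup.map_normalClosure _ _ (QuotientGroup.mk'_surjective _)]
  rfl

/-- In the coprime case `Y = O^p(P)`. -/
theorem eq_residual (h : Nat.Coprime (Nat.card (Y.map (QuotientGroup.mk' (pCore p G)))) p) :
    (pResidual p ↥P).map P.subtype = Y := by
  set π := QuotientGroup.mk' (pCore p G)
  set A := (pResidual p ↥P).map P.subtype with hA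
  haveI hYn : Y.Normal := hY ▸ Subgroup.normalClosure_normal
  have hmap := map_Y S P L hSP hPmin hL hiso Y hY
  rw [hmap] at h
  have heq := ((setting S P L hSP hPmin hL hiso).coprime_case h).1
  rw [← hmap] at heq
  have hAY : A ≤ Y := hY ▸ Subgroup.le_normalClosure
  refine le_antisymm hAY ?_
  have hPA : P ≤ Subgroup.normalizer (A : Set G) := by
    haveI : (pResidual p ↥P).Normal := CfsgLib.StronglyPEmbedded.normal_pResidual'
    exact le_normalizer_map_of_normal _
  refine le_of_le_sup (CfsgLib.Cores.isPGroup_pCore p G)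
    ((CfsgLib.Cores.pCore_le_sylow S).trans (hSP.trans hPA)) ?_ ?_
  · -- `Y` is generated by `p'`-elements
    set D := Subgroup.closure {a : G | a ∈ Y ∧ (orderOf a).Coprime p}
    haveI : D.Normal := by
      refine ⟨fun n hn g => ?_⟩
      have : D ≤ D.comap (MulAut.conj g).toMonoidHom := by
        refine (Subgroup.closure_le _).2 fun a ha => Subgroup.subset_closure ⟨hYn.conj_mem a ha.1 g, ?_⟩
        rw [← MonoidHom.coe_coe, orderOf_injective _ (MulAut.conj g).injective]
        exact ha.2
      exact this hn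
    refine le_of_eq_of_le hY (Subgroup.normalClosure_le_normal ?_)
    refine SetLike.coe_subset_coe.2 ((residual_le_closure P).trans (Subgroup.closure_mono ?_))
    rintro a ⟨ha, hao⟩
    exact ⟨hAY ha, hao⟩
  · rw [← QuotientGroup.ker_mk' (pCore p G), ← Subgroup.comap_map_eq]
    exact Subgroup.map_le_iff_le_comap.1 heq.le

end

end CfsgLib.IsolatedPMin
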